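import Cfsg.Agent.H410.EBG.Sign
import Cfsg.Agent.S0312

/-!
# The constituents of `1_B^G` lie in the principal `2`-block

For a root group datum with commutative torus containing all sign elements.
-/

set_option autoImplicit false
set_option linter.unusedSectionVars false

namespace Cfsg.Agent.H410.EBG

open CoxeterSystem Cfsg.Agent.ChevalleyStructure.CoxeterGeom Cfsg.Agent.Tits.Roots Cfsg.Agent.Tits.Core
  Cfsg.Agent.Nodes.Reps Cfsg.Agent.Nodes.BNOf Cfsg.Agent.Nodes.Bruhat Cfsg.Agent.Nodes.NormalForm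
open Cfsg Cfsg.Agent.H694 Cfsg.Agent.H694.EB Cfsg.Agent.H610.EB

universe u

variable {I W : Type*} {Y : Type u} [Fintype I] [DecidableEq I] [Group W] [Group Y] {M : CoxeterMatrix I}
  {cs : CoxeterSystem M W} {A : I → I → ℤ} {h : IsCartan M A} {p : ℕ} {T : Subgroup Y} {n : I → Y}
  {X : (I → ℤ) → Subgroup Y}

variable (R : RGD cs h p T n X) (hS : Sgn cs h T X)

include R in
theorem GG_eq_top (hgen : RGD.B cs h T X ⊔ NN cs R.nsys = ⊤) : GG cs h T X = ⊤ := by
  rw [eq_top_iff, ← hgen]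
  exact sup_le B_le_GG (NN_le_GG R)

include hS in
/-- The number of conjugates of an element of odd order mapping a chamber to a different chamber is even. -/
theorem even_cn [Finite W] [Fintype Y] (hgen : RGD.B cs h T X ⊔ NN cs R.nsys = ⊤) {g : Y} (hodd : Odd (orderOf g))
    (x y : Y ⧸ RGD.B cs h T X) (hxy : x ≠ y) : Even (cn g x y) := by
  have hG := GG_eq_top R hgen
  induction x using QuotientGroup.induction_on with
  | _ a =>
  induction y using QuotientGroup.induction_on with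
  | _ b =>
  have hcell : b⁻¹ * a ∈ GG cs h T X := by rw [hG]; exact Subgroup.mem_top _
  obtain ⟨w, b₁, hb₁, k, hk, b₂, hb₂, hba⟩ := (mem_GG R).1 hcell
  have hw : w ≠ 1 := by
    rintro rfl
    apply hxy
    symm
    rw [QuotientGroup.eq, hba]
    exact mul_mem (mul_mem hb₁ (RGD.T_le_B hk.mem_of_one)) hb₂
  have h1 : (QuotientGroup.mk a : Y ⧸ RGD.B cs h T X) = (b * b₁) • (QuotientGroup.mk k : Y ⧸ RGD.B cs h T X) := by
    show (QuotientGroup.mk a : Y ⧸ RGD.B cs h T X) = QuotientGroup.mk (b * b₁ * k)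
    symm
    rw [QuotientGroup.eq]
    have h2 : (b * b₁ * k)⁻¹ * a = b₂ := by
      have h3 : a = b * (b₁ * k * b₂) := by rw [← hba]; group
      rw [h3]; group
    rw [h2]; exact hb₂
  have h2 : (QuotientGroup.mk b : Y ⧸ RGD.B cs h T X) = (b * b₁) • (QuotientGroup.mk 1 : Y ⧸ RGD.B cs h T X) := by
    show (QuotientGroup.mk b : Y ⧸ RGD.B cs h T X) = QuotientGroup.mk (b * b₁ * 1)
    rw [QuotientGroup.eq]
    have h3 : b⁻¹ * (b * b₁ * 1) = b₁ := by group
    rw [h3]; exact hb₁
  rw [h1, h2, cn_smul]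
  have h3 := even_card R hS hG hodd hk hw
  unfold cn
  have h4 : ∀ x : Y, (IsConj g x ∧ x • (QuotientGroup.mk 1 : Y ⧸ RGD.B cs h T X) = QuotientGroup.mk k) ↔
      (IsConj g x ∧ k⁻¹ * x ∈ RGD.B cs h T X) := by
    intro x
    have h5 : x • (QuotientGroup.mk 1 : Y ⧸ RGD.B cs h T X) = QuotientGroup.mk k ↔ k⁻¹ * x ∈ RGD.B cs h T X := by
      show (QuotientGroup.mk (x * 1) : Y ⧸ RGD.B cs h T X) = QuotientGroup.mk k ↔ _
      rw [mul_one, eq_comm, QuotientGroup.eq]
    rw [h5]
  rw [Nat.card_congr (Equiv.subtypeEquivRight h4)]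
  exact h3

include hS in
/-- **The constituents of the permutation character on the Borel subgroups lie in the principal `2`-block.** -/
theorem inB0_borel [Finite W] [Fintype Y] (hgen : RGD.B cs h T X ⊔ NN cs R.nsys = ⊤) :
    InB0 (cls (R.bnPair hgen).B) := by
  classical
  intro m hm φ hφ
  have hB : Subgroup.normalizer ((R.bnPair hgen).B : Set Y) = (R.bnPair hgen).B := by
    have h1 := Cfsg.Agent.S0312.result (R.bnPair hgen) (J := ∅) (Set.empty_subset _)
    have h2 : (R.bnPair hgen).parabolic ∅ = (R.bnPair hgen).B := by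
      unfold Cfsg.BNPair.parabolic
      simp
    rwa [h2] at h1
  have h1 := sum_ne_zero φ hφ
  simp only [permS_cls hB] at h1
  have := Fintype.ofFinite (Y ⧸ (R.bnPair hgen).B)
  refine mem_principalBlock (X := Y ⧸ (R.bnPair hgen).B) hm φ h1 fun g hg => ⟨1, ?_⟩
  have hodd : Odd (orderOf g) := by
    rw [← Nat.not_even_iff_odd, even_iff_two_dvd]
    exact hg
  have hev : ∀ x y : Y ⧸ (R.bnPair hgen).B, x ≠ y → ((cn g x y : ℕ) : ZMod 2) = 0 := by
    intro x y hxy
    exact (ZMod.natCast_eq_zero_iff_even).2 (even_cn R hS hgen hodd x y hxy)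
  rw [pow_one]
  ext x y
  rw [Matrix.sub_apply, Matrix.of_apply, Matrix.smul_apply, Matrix.one_apply, Matrix.zero_apply, smul_eq_mul]
  by_cases hxy : x = y
  · subst hxy
    rw [if_pos rfl, mul_one, ← sum_cn g x, Nat.cast_sum, Finset.sum_eq_single x, sub_self]
    · intro y _ hy
      exact hev x y (Ne.symm hy)
    · intro hx
      exact absurd (Finset.mem_univ x) hx
  · rw [if_neg hxy, mul_zero, sub_zero]
    exact hev x y hxy

end Cfsg.Agent.H410.EBG
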