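import Cfsg.Agent.H694.CoxCount
import Cfsg.Agent.Nodes.RGDTwD4

/-!
# Double cosets of the maximal parabolic subgroups of the Weyl group of type `G₂`
-/

set_option autoImplicit false

namespace Cfsg.Agent.H410.EBG

open Cfsg.Agent.H694 Cfsg.Agent.ChevalleyStructure.CoxeterGeom Cfsg.Agent.Tits.Core
  Cfsg.Agent.Tits.OppRes

/-- the dominant functional -/
def cG : Fin 2 → ℤ := ![0, 1]

/-- its orbit -/
def phG : Fin 6 → Fin 2 → ℤ := ![![0, 1], ![3, -1], ![-3, 2], ![3, -2], ![-3, 1], ![0, -1]]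

/-- the simple reflections on the orbit -/
def sG : Fin 2 → Fin 6 → Fin 6 := ![![0, 2, 1, 4, 3, 5], ![1, 0, 3, 2, 5, 4]]

theorem parity_G2 {W : Type*} [Group W] [Finite W] (cs : CoxeterSystem CoxeterMatrix.G₂ W) :
    Nat.card (DoubleCoset.Quotient (WJ cs {0} : Set W) (WJ cs {0} : Set W)) = 4 ∧
      Nat.card (DoubleCoset.Quotient (WJ cs {0} : Set W) (WJ cs {1} : Set W)) = 3 := by
  obtain ⟨-, h2⟩ := count cs Nodes.RGDTwD4.isCartan (c := cG) (by decide) phG
    (by decide) 0 (by decide) sG (by decide) (fun y => (y : ℕ)) (by decide)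
  have h3 : {i | cG i = 0} = ({0} : Set (Fin 2)) := by
    ext i
    fin_cases i <;> simp [cG]
  rw [h3] at h2
  rw [h2, card_double_comm, h2]
  have h4 : ∀ (l : Fin 2) (y : Fin 6), (∀ i ∈ ({l} : Set (Fin 2)), 0 ≤ phG y i) ↔ 0 ≤ phG y l := by
    intro l y
    simp
  rw [Nat.card_congr (Equiv.subtypeEquivRight (h4 0)), Nat.card_congr (Equiv.subtypeEquivRight (h4 1)),
    Nat.card_eq_fintype_card, Nat.card_eq_fintype_card]
  constructor <;> decide

end Cfsg.Agent.H410.EBG
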