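import Cfsg.Agent.H410.EBG.Inst

/-!
# The groups `G₂(q)` and `³D₄(q)`, `q` odd: the sign elements
-/

set_option autoImplicit false
set_option linter.unusedSectionVars false

namespace Cfsg.Agent.H410.EBG

open CoxeterSystem Cfsg.Agent.ChevalleyStructure.CoxeterGeom Cfsg.Agent.Tits.Roots Cfsg.Agent.Tits.Core
  Cfsg.Agent.Nodes.Reps Cfsg.Agent.Nodes.BNOf Cfsg.Agent.Nodes.RGDChev
open Cfsg Cfsg.Agent.H694 Cfsg.Agent.H694.EB Cfsg.Agent.H610.EB Cfsg.Agent.FixBN
open Cfsg.Lie Cfsg.Agent.ChevalleyStructure Cfsg.Agent.ChevalleyStructure.Elts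
  Cfsg.Agent.ChevalleyStructure.RootVec Cfsg.Agent.ChevalleyStructure.RootVecTab Cfsg.Agent.ChevalleyStructure.NPerm

universe u

/-! ### `G₂` -/

theorem isType_G2 : IsType chevG2 2 CoxeterMatrix.G₂ := by simp [IsType, typeList]

theorem rank_G2 : chevG2.rank = 2 := by decide +kernel

theorem par_G2 : ∀ s < chevG2.nroots, (2 : ℤ) ∣ (chevG2.cartan 1 s - rt chevG2 s 0) ∧
    (2 : ℤ) ∣ (chevG2.cartan 0 s - rt chevG2 s 1) := by decide +kernel

theorem even_iff_of_dvd {a b : ℤ} (h : (2 : ℤ) ∣ a - b) : Even a ↔ Even b := by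
  rw [Int.even_iff, Int.even_iff]; omega

/-- sign elements of `G₂` -/
theorem sign_G2 (K : Type u) [Field K] (i : Fin 2) : ∃ e ∈ (chevG2.diagonalSubgroup K), e ∈ chevG2.group K ∧ e * e = 1 ∧
    ∀ s < chevG2.nroots, ∀ t : K, (Even (vec chevG2 2 s i) → e * xG isType_G2.inList s t * e⁻¹ = xG isType_G2.inList s t) ∧
      (Odd (vec chevG2 2 s i) → e * xG isType_G2.inList s t * e⁻¹ = (xG isType_G2.inList s t)⁻¹) := by
  have hD := isType_G2.inList
  have key : ∀ j : ℕ, j < chevG2.rank → (∀ s < chevG2.nroots, (2 : ℤ) ∣ chevG2.cartan j s - vec chevG2 2 s i) →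
      ∃ e ∈ (chevG2.diagonalSubgroup K), e ∈ chevG2.group K ∧ e * e = 1 ∧
    ∀ s < chevG2.nroots, ∀ t : K, (Even (vec chevG2 2 s i) → e * xG isType_G2.inList s t * e⁻¹ = xG isType_G2.inList s t) ∧
      (Odd (vec chevG2 2 s i) → e * xG isType_G2.inList s t * e⁻¹ = (xG isType_G2.inList s t)⁻¹) := by
    intro j hj hpar
    have hr := simple_lt hD hj
    refine ⟨hG hD (chevG2.simple j) (-1 : K), hG_mem_diagonal hD hr (by simp), hG_mem_group hD _ _, hG_sq hD hr, ?_⟩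
    intro s hs t
    constructor
    · intro hev
      exact hG_conj_even hD hj hs ((even_iff_of_dvd (hpar s hs)).2 hev) t
    · intro ho
      refine hG_conj_odd hD hj hs ?_ t
      rw [← Int.not_even_iff_odd, even_iff_of_dvd (hpar s hs), Int.not_even_iff_odd]
      exact ho
  fin_cases i
  · exact key 1 (by rw [rank_G2]; norm_num) (fun s hs => (par_G2 s hs).1)
  · exact key 0 (by rw [rank_G2]; norm_num) (fun s hs => (par_G2 s hs).2)

theorem hasRGDS_G2 (K : Type u) [Field K] [Finite K] (p : ℕ) [CharP K p] (hp2 : p ≠ 2) :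
    HasRGDS p CoxeterMatrix.G₂ ↥(chevG2.group K) := by
  have : Fact p.Prime := ⟨CharP.char_is_prime K p⟩
  have hp : p.Prime := Fact.out
  have hW : Finite CoxeterMatrix.G₂.Group := finite_W isType_G2 CoxeterMatrix.G₂.toCoxeterSystem
  have R := rgd (K := K) isType_G2 CoxeterMatrix.G₂.toCoxeterSystem p
  refine ⟨_, isType_G2.isCartan, _, _, _, hW, R, G1_eq_top isType_G2 _, ?_⟩
  refine Sgn.of_inv R (hp.odd_of_ne_two hp2) ?_ ?_
  · rintro ⟨s, hs'⟩ hs ⟨t, ht'⟩ ht
    exact Subtype.ext (diagonal_comm isType_G2.inList hs ht)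
  · intro i
    obtain ⟨e, heT, heG, he2, he⟩ := sign_G2 K i
    refine ⟨⟨e, heG⟩, heT, Subtype.ext he2, ?_⟩
    rintro x hx ⟨u, hu'⟩ hu
    obtain ⟨s, hs, rfl⟩ := (isRoot_iff isType_G2 CoxeterMatrix.G₂.toCoxeterSystem x).1 hx
    rw [Subgroup.mem_subgroupOf, XV_vec isType_G2 K hs, mem_rootSubgroup_iff isType_G2.inList] at hu
    obtain ⟨t, rfl⟩ := hu
    exact ⟨fun h => Subtype.ext ((he s hs t).1 h), fun h => Subtype.ext ((he s hs t).2 h)⟩

/-! ### `³D₄` -/

open Cfsg.Agent.Nodes.RGDTwD4 Cfsg.Agent.Nodes.RGDFold Cfsg.Agent.Nodes.RGDTwGen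
open Cfsg.Agent.ChevalleyStructure.TwistedU Cfsg.Agent.ChevalleyStructure.TwistedFix
open Cfsg.Agent.ChevalleyStructure.D4U Cfsg.Agent.ChevalleyStructure.D4Twisted
open Cfsg.Agent.ChevalleyStructure.D4Fixed (sig)

theorem rank_D4 : chevD4.rank = 4 := by decide +kernel

theorem par_D4 : ∀ s < chevD4.nroots, (2 : ℤ) ∣ (chevD4.cartan 1 s - V chevD4 Nodes.RGDTwD4.J s 1) ∧
    (2 : ℤ) ∣ (chevD4.cartan 0 s + chevD4.cartan 2 s + chevD4.cartan 3 s - V chevD4 Nodes.RGDTwD4.J s 0) := by decide +kernel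

/-- `e` acts on the root elements by the signs `(-1)^(c s)` -/
def Act (K : Type u) [Field K] (e : GL chevD4.Idx K) (c : ℕ → ℤ) : Prop :=
  ∀ s < chevD4.nroots, ∀ t : K, e * xG Nodes.RGDTwD4.hp.inList s t * e⁻¹ = xG Nodes.RGDTwD4.hp.inList s ((-1) ^ c s * t)

theorem Act.mul {K : Type u} [Field K] {e f : GL chevD4.Idx K} {c d : ℕ → ℤ} (he : Act K e c) (hf : Act K f d) :
    Act K (e * f) (fun s => c s + d s) := by
  intro s hs t
  have h1 : e * f * xG Nodes.RGDTwD4.hp.inList s t * (e * f)⁻¹ = e * (f * xG Nodes.RGDTwD4.hp.inList s t * f⁻¹) * e⁻¹ := by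
    group
  rw [h1, hf s hs, he s hs, zpow_add₀ (by simp), mul_assoc]

theorem act_hG {K : Type u} [Field K] {j : ℕ} (hj : j < chevD4.rank) :
    Act K (hG Nodes.RGDTwD4.hp.inList (chevD4.simple j) (-1 : K)) (chevD4.cartan j) :=
  fun s hs t => BruhatSplit.hG_simple_conj _ hj hs (by simp) t

/-- sign elements of `³D₄` -/
theorem sign_D4 {K : Type u} [Field K] {q : ℕ} {φ : K →+* K} (hφ : ∀ x, φ x = x ^ q) (i : Fin 2) :
    ∃ e ∈ (chevD4.diagonalSubgroup K), e ∈ twistedD4 K q ∧ e * e = 1 ∧ ∃ c : ℕ → ℤ, Act K e c ∧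
      ∀ s < chevD4.nroots, (2 : ℤ) ∣ c s - V chevD4 Nodes.RGDTwD4.J s i := by
  have hD := Nodes.RGDTwD4.hp.inList
  have hs0 : chevD4.simple 0 = 18 := by decide +kernel
  have hs1 : chevD4.simple 1 = 14 := by decide +kernel
  have hs2 : chevD4.simple 2 = 13 := by decide +kernel
  have hs3 : chevD4.simple 3 = 12 := by decide +kernel
  have hR : ∀ r < 24, D4NConj.hR r (-1 : K) = hG hD r (-1 : K) := by
    intro r hr
    apply Units.ext
    rw [coe_hG]
    exact D4NConj.coe_hR hr (-1)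
  have hn : chevD4.nroots = 24 := by decide +kernel
  have hm1 : φ (-1) = -1 := by rw [map_neg, map_one]
  fin_cases i
  · have hb1 : hb φ (-1 : K) = hG hD (chevD4.simple 0) (-1 : K) * hG hD (chevD4.simple 2) (-1 : K) *
        hG hD (chevD4.simple 3) (-1 : K) := by
      unfold hb
      rw [hm1, hm1, hs0, hs2, hs3, hR 18 (by norm_num), hR 13 (by norm_num), hR 12 (by norm_num)]
    have hd : ∀ j < chevD4.rank, hG hD (chevD4.simple j) (-1 : K) ∈ chevD4.diagonalSubgroup K := fun j hj =>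
      hG_mem_diagonal hD (simple_lt hD hj) (by simp)
    have hr : chevD4.rank = 4 := rank_D4
    refine ⟨hb φ (-1 : K), hb_mem_diagonal φ (by simp), hb_mem hφ _, ?_, _, ?_, fun s hs => (par_D4 s hs).2⟩
    · rw [hb1]
      have c1 := diagonal_comm hD (hd 0 (by omega)) (hd 2 (by omega))
      have c2 := diagonal_comm hD (hd 0 (by omega)) (hd 3 (by omega))
      have c3 := diagonal_comm hD (hd 2 (by omega)) (hd 3 (by omega))
      have q0 := hG_sq hD (F := K) (simple_lt hD (show 0 < chevD4.rank by omega))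
      have q2 := hG_sq hD (F := K) (simple_lt hD (show 2 < chevD4.rank by omega))
      have q3 := hG_sq hD (F := K) (simple_lt hD (show 3 < chevD4.rank by omega))
      generalize hG hD (chevD4.simple 0) (-1 : K) = a at *
      generalize hG hD (chevD4.simple 2) (-1 : K) = b at *
      generalize hG hD (chevD4.simple 3) (-1 : K) = c at *
      calc a * b * c * (a * b * c) = a * b * (c * a) * b * c := by group
        _ = a * b * (a * c) * b * c := by rw [c2]
        _ = a * (b * a) * c * b * c := by group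
        _ = a * (a * b) * c * b * c := by rw [c1]
        _ = (a * a) * b * (c * b) * c := by group
        _ = (a * a) * b * (b * c) * c := by rw [c3]
        _ = (a * a) * (b * b) * (c * c) := by group
        _ = 1 := by rw [q0, q2, q3, one_mul, one_mul]
    · rw [hb1]
      exact ((act_hG (by omega)).mul (act_hG (by omega))).mul (act_hG (by omega))
  · refine ⟨hG hD (chevD4.simple 1) (-1 : K), hG_mem_diagonal hD (simple_lt hD (by rw [rank_D4]; norm_num)) (by simp), ?_,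
      hG_sq hD (simple_lt hD (by rw [rank_D4]; norm_num)), _, act_hG (by rw [rank_D4]; norm_num),
      fun s hs => (par_D4 s hs).1⟩
    rw [hs1, ← hR 14 (by norm_num)]
    exact h14_mem hφ hm1

theorem comm_D4 : ∀ r < chevD4.nroots, ∀ s < chevD4.nroots, V chevD4 Nodes.RGDTwD4.J r = V chevD4 Nodes.RGDTwD4.J s →
    s ≠ r → s ≠ chevD4.neg r ∧ chevD4.commTerms r s = [] := by decide +kernel

/-- the action of the sign elements on the relative root groups -/
theorem sign_R {K : Type u} [Field K] {e : GL chevD4.Idx K} {c : ℕ → ℤ} (he : Act K e c) {i : Fin 2}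
    (hc : ∀ s < chevD4.nroots, (2 : ℤ) ∣ c s - V chevD4 Nodes.RGDTwD4.J s i) {z : Fin 2 → ℤ} {u : GL chevD4.Idx K}
    (hu : u ∈ rspan (xG Nodes.RGDTwD4.hp.inList) {k | k < chevD4.nroots ∧ V chevD4 Nodes.RGDTwD4.J k = z}) :
    (Even (z i) → e * u * e⁻¹ = u) ∧ (Odd (z i) → e * u * e⁻¹ = u⁻¹) := by
  have hD := Nodes.RGDTwD4.hp.inList
  -- commutativity
  have hcomm : ∀ u ∈ rspan (xG (F := K) hD) {k | k < chevD4.nroots ∧ V chevD4 Nodes.RGDTwD4.J k = z},
      ∀ v ∈ rspan (xG (F := K) hD) {k | k < chevD4.nroots ∧ V chevD4 Nodes.RGDTwD4.J k = z}, u * v = v * u := by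
    have hgen : ∀ a ∈ {g | ∃ r ∈ {k | k < chevD4.nroots ∧ V chevD4 Nodes.RGDTwD4.J k = z}, ∃ t : K, g = xG hD r t},
        ∀ b ∈ {g | ∃ r ∈ {k | k < chevD4.nroots ∧ V chevD4 Nodes.RGDTwD4.J k = z}, ∃ t : K, g = xG hD r t},
        a * b = b * a := by
      rintro _ ⟨r, ⟨hr, hrz⟩, t, rfl⟩ _ ⟨s, ⟨hs, hsz⟩, t', rfl⟩
      by_cases hrs : s = r
      · subst hrs
        rw [xG_add, xG_add, add_comm]
      · obtain ⟨h1, h2⟩ := comm_D4 r hr s hs (hrz.trans hsz.symm) hrs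
        exact commute_of_nil Nodes.RGDTwD4.hp hr hs hrs h1 h2 t t'
    have h1 : rspan (xG (F := K) hD) {k | k < chevD4.nroots ∧ V chevD4 Nodes.RGDTwD4.J k = z} ≤
        Subgroup.centralizer (rspan (xG (F := K) hD) {k | k < chevD4.nroots ∧ V chevD4 Nodes.RGDTwD4.J k = z} : Set _) := by
      unfold rspan
      rw [Subgroup.closure_le]
      intro a ha
      rw [SetLike.mem_coe, Subgroup.mem_centralizer_iff]
      intro b hb
      refine Subgroup.closure_induction (p := fun b _ => b * a = a * b) ?_ ?_ ?_ ?_ hb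
      · intro b hb
        exact (hgen a ha b hb).symm
      · rw [one_mul, mul_one]
      · intro x y _ _ hx hy
        rw [mul_assoc, hy, ← mul_assoc, hx, mul_assoc]
      · intro x _ hx
        rw [inv_mul_eq_iff_eq_mul, ← mul_assoc, hx, mul_inv_cancel_right]
    intro u hu v hv
    exact (Subgroup.mem_centralizer_iff.1 (h1 hu) v hv).symm
  constructor
  · intro hev
    refine Subgroup.closure_induction (p := fun u _ => e * u * e⁻¹ = u) ?_ ?_ ?_ ?_ hu
    · rintro _ ⟨r, ⟨hr, hrz⟩, t, rfl⟩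
      have h1 : Even (c r) := by
        rw [even_iff_of_dvd (hc r hr), hrz]; exact hev
      rw [he r hr, h1.neg_one_zpow, one_mul]
    · rw [mul_one, mul_inv_cancel]
    · intro x y _ _ hx hy
      calc e * (x * y) * e⁻¹ = (e * x * e⁻¹) * (e * y * e⁻¹) := by group
        _ = x * y := by rw [hx, hy]
    · intro x _ hx
      calc e * x⁻¹ * e⁻¹ = (e * x * e⁻¹)⁻¹ := by group
        _ = x⁻¹ := by rw [hx]
  · intro ho
    refine Subgroup.closure_induction (p := fun u _ => e * u * e⁻¹ = u⁻¹) ?_ ?_ ?_ ?_ hu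
    · rintro _ ⟨r, ⟨hr, hrz⟩, t, rfl⟩
      have h1 : Odd (c r) := by
        rw [← Int.not_even_iff_odd, even_iff_of_dvd (hc r hr), hrz, Int.not_even_iff_odd]; exact ho
      rw [he r hr, h1.neg_one_zpow, neg_one_mul, xG_inv]
    · rw [mul_one, mul_inv_cancel, inv_one]
    · intro x y hxm hym hx hy
      have h1 := hcomm x hxm y hym
      calc e * (x * y) * e⁻¹ = (e * x * e⁻¹) * (e * y * e⁻¹) := by group
        _ = x⁻¹ * y⁻¹ := by rw [hx, hy]
        _ = (y * x)⁻¹ := by group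
        _ = (x * y)⁻¹ := by rw [h1]
    · intro x _ hx
      calc e * x⁻¹ * e⁻¹ = (e * x * e⁻¹)⁻¹ := by group
        _ = x⁻¹⁻¹ := by rw [hx]

theorem hasRGDS_D4 {K : Type u} [Field K] [Fintype K] {q : ℕ} (hq : IsPrimePow q) (hK : Fintype.card K = q ^ 3)
    (p : ℕ) [CharP K p] (hp2 : p ≠ 2) : HasRGDS p CoxeterMatrix.G₂ ↥(twistedD4 K q) := by
  have : Fact p.Prime := ⟨CharP.char_is_prime K p⟩
  have hp : p.Prime := Fact.out
  obtain ⟨φ, hφ⟩ := D4Fixed.exists_frob hq hK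
  have hW : Finite CoxeterMatrix.G₂.Group := Nodes.RGDFold.finite_W (hp := Nodes.RGDTwD4.hp)
    CoxeterMatrix.G₂.toCoxeterSystem Nodes.RGDTwD4.isCartan Nodes.RGDTwD4.foldData
  have R := Nodes.RGDTwD4.rgd CoxeterMatrix.G₂.toCoxeterSystem hK hφ p
  refine ⟨_, Nodes.RGDTwD4.isCartan, _, _, _, hW, R, Nodes.RGDTwD4.G1_eq_top _ hK hφ, ?_⟩
  refine Sgn.of_inv R (hp.odd_of_ne_two hp2) ?_ ?_
  · rintro ⟨s, hs'⟩ hs ⟨t, ht'⟩ ht
    exact Subtype.ext (diagonal_comm Nodes.RGDTwD4.hp.inList hs.1 ht.1)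
  · intro i
    obtain ⟨e, heT, heG, he2, c, he, hc⟩ := sign_D4 hφ i
    refine ⟨⟨e, heG⟩, ⟨heT, heG⟩, Subtype.ext he2, ?_⟩
    rintro x hx ⟨u, hu'⟩ hu
    have hu2 : u ∈ rspan (xG (F := K) Nodes.RGDTwD4.hp.inList)
      {k | k < chevD4.nroots ∧ V chevD4 Nodes.RGDTwD4.J k = x} := hu.1
    obtain ⟨h1, h2⟩ := sign_R he hc hu2
    exact ⟨fun h => Subtype.ext (h1 h), fun h => Subtype.ext (h2 h)⟩

/-- **`G₂(q)`, `q` odd**: the constituents of `1_B^G` are in the principal `2`-block -/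
theorem hasSplitB0_G2 {S : Type*} [Group S] [Finite S] [IsSimpleGroup S] {K : Type*} [Field K] [Finite K] (p : ℕ) [CharP K p]
    (hp2 : p ≠ 2) (e : S ≃* ↥(chevG2.group K)) : HasSplitB0 p CoxeterMatrix.G₂ S :=
  ((hasRGDS_G2 K p hp2).of_equiv e.symm).hasSplitB0 (CharP.char_is_prime K p) (by norm_num)

/-- **`³D₄(q)`, `q` odd**: the constituents of `1_B^G` are in the principal `2`-block -/
theorem hasSplitB0_D4 {S : Type*} [Group S] [Finite S] [IsSimpleGroup S] {K : Type*} [Field K] [Fintype K] {q : ℕ}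
    (hq : IsPrimePow q) (hK : Fintype.card K = q ^ 3) (p : ℕ) [CharP K p]
    (hp2 : p ≠ 2) (e : S ≃* ↥(twistedD4 K q)) : HasSplitB0 p CoxeterMatrix.G₂ S :=
  ((hasRGDS_D4 hq hK p hp2).of_equiv e.symm).hasSplitB0 (CharP.char_is_prime K p) (by norm_num)

end Cfsg.Agent.H410.EBG
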