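import Cfsg.Agent.H410.EBG.Borel
import Cfsg.Agent.Nodes.RGDTwD4
import Cfsg.Agent.ChevalleyStructure.BruhatSplit

/-!
# The groups `G₂(q)` and `³D₄(q)`, `q` odd
-/

set_option autoImplicit false
set_option linter.unusedSectionVars false

namespace Cfsg.Agent.H410.EBG

open CoxeterSystem Cfsg.Agent.ChevalleyStructure.CoxeterGeom Cfsg.Agent.Tits.Roots Cfsg.Agent.Tits.Core
  Cfsg.Agent.Nodes.Reps Cfsg.Agent.Nodes.BNOf Cfsg.Agent.Nodes.Bruhat Cfsg.Agent.Nodes.NormalForm
open Cfsg Cfsg.Agent.H694 Cfsg.Agent.H694.EB Cfsg.Agent.H610.EB Cfsg.Agent.FixBN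
open Cfsg.Lie Cfsg.Agent.ChevalleyStructure Cfsg.Agent.ChevalleyStructure.Elts

universe u

section

variable {I W Y : Type*} [Fintype I] [DecidableEq I] [Group W] [Group Y] {M : CoxeterMatrix I}
  {cs : CoxeterSystem M W} {A : I → I → ℤ} {h : IsCartan M A} {p : ℕ} {T : Subgroup Y} {n : I → Y}
  {X : (I → ℤ) → Subgroup Y}

/-- sign elements acting by inversion -/
theorem Sgn.of_inv [Finite W] (R : RGD cs h p T n X) (hp : Odd p) (hT : ∀ s ∈ T, ∀ t ∈ T, s * t = t * s)
    (he : ∀ i : I, ∃ e ∈ T, e * e = 1 ∧ ∀ x, IsRoot cs h x → ∀ u ∈ X x,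
      (Even (x i) → e * u * e⁻¹ = u) ∧ (Odd (x i) → e * u * e⁻¹ = u⁻¹)) : Sgn cs h T X where
  comm := hT
  ex i := by
    obtain ⟨e, heT, he2, he⟩ := he i
    refine ⟨e, heT, he2, fun x hx u hu => ⟨(he x hx u hu).1, fun ho hu1 => ?_⟩⟩
    have h1 := (he x hx u hu).2 ho
    rw [hu1] at h1
    have h2 : u ^ 2 = 1 := by
      rw [pow_two]
      nth_rewrite 2 [h1]
      exact mul_inv_cancel u
    obtain ⟨k, hk⟩ := R.pgrp' hx ⟨u, hu⟩
    have h3 : u ^ p ^ k = 1 := congrArg Subtype.val hk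
    have h4 : orderOf u ∣ 1 := by
      have h5 : Nat.Coprime 2 (p ^ k) := (Nat.coprime_two_left).2 hp.pow
      rw [← h5]
      exact Nat.dvd_gcd (orderOf_dvd_of_pow_eq_one h2) (orderOf_dvd_of_pow_eq_one h3)
    exact orderOf_eq_one_iff.1 (Nat.dvd_one.1 h4)

end

/-- diagonal matrices commute -/
theorem diagonal_comm {D : ChevalleyDatum} (hD : InList D) {F : Type*} [Field F] {s t : GL D.Idx F}
    (hs : s ∈ D.diagonalSubgroup F) (ht : t ∈ D.diagonalSubgroup F) : s * t = t * s := by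
  obtain ⟨χ, hχ⟩ := HMatDiagAll.mem_torus.1 (HMatDiagAll.diagonalSubgroup_le_torus hD hs)
  obtain ⟨ψ, hψ⟩ := HMatDiagAll.mem_torus.1 (HMatDiagAll.diagonalSubgroup_le_torus hD ht)
  apply Units.ext
  rw [Units.val_mul, Units.val_mul, hχ, hψ, Matrix.diagonal_mul_diagonal, Matrix.diagonal_mul_diagonal]
  congr 1
  funext i
  exact mul_comm _ _

/-- the elements `h_r(-1)` are involutions -/
theorem hG_sq {D : ChevalleyDatum} (hD : InList D) {F : Type*} [Field F] {r : ℕ} (hr : r < D.nroots) :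
    hG hD r (-1 : F) * hG hD r (-1 : F) = 1 := by
  apply Units.ext
  rw [Units.val_mul, coe_hG, HMatDiagAll.hMat_eq_diagonal hD hr (by simp : (-1 : F) ≠ 0), Matrix.diagonal_mul_diagonal,
    Units.val_one, ← Matrix.diagonal_one]
  congr 1
  funext i
  rcases i with i | i
  · simp
  · simp only [Sum.elim_inr]
    rw [← mul_zpow, neg_mul_neg, one_mul, one_zpow]

/-- the action of `h_{p_i}(-1)` -/
theorem hG_conj_even {D : ChevalleyDatum} (hD : InList D) {F : Type*} [Field F] {i s : ℕ} (hi : i < D.rank)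
    (hs : s < D.nroots) (hev : Even (D.cartan i s)) (t : F) :
    hG hD (D.simple i) (-1 : F) * xG hD s t * (hG hD (D.simple i) (-1 : F))⁻¹ = xG hD s t := by
  rw [BruhatSplit.hG_simple_conj hD hi hs (by simp : (-1 : F) ≠ 0), hev.neg_one_zpow, one_mul]

theorem hG_conj_odd {D : ChevalleyDatum} (hD : InList D) {F : Type*} [Field F] {i s : ℕ} (hi : i < D.rank)
    (hs : s < D.nroots) (ho : Odd (D.cartan i s)) (t : F) :
    hG hD (D.simple i) (-1 : F) * xG hD s t * (hG hD (D.simple i) (-1 : F))⁻¹ = (xG hD s t)⁻¹ := by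
  rw [BruhatSplit.hG_simple_conj hD hi hs (by simp : (-1 : F) ≠ 0), ho.neg_one_zpow, neg_one_mul, xG_inv]

/-- the group `K` has a split (B,N)-pair of characteristic `p` and type `M` such that the constituents of the permutation
character on the Borel subgroups lie in the principal `2`-block -/
def HasSplitB0 (p : ℕ) {I : Type*} (M : CoxeterMatrix I) (K : Type u) [Group K] : Prop :=
  ∃ (P : Cfsg.BNPair K) (U : Subgroup K) (e : I ≃ P.S), Split P p U ∧ BNType P M e ∧ ∀ [Fintype K], InB0 (cls P.B)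

theorem HasSplitB0.hasSplitT {p : ℕ} {I : Type*} {M : CoxeterMatrix I} {K : Type u} [Group K] (hK : HasSplitB0 p M K) :
    Cfsg.Agent.Omega.ML.Ex.Typ.HasSplitT p M K := by
  obtain ⟨P, U, e, h1, h2, -⟩ := hK
  exact ⟨P, U, e, h1, h2⟩

/-- the group `G` is generated by a root group datum of characteristic `p` and type `M` with sign elements -/
def HasRGDS (p : ℕ) {l : ℕ} (M : CoxeterMatrix (Fin l)) (G : Type u) [Group G] : Prop :=
  ∃ (A : Fin l → Fin l → ℤ) (h : IsCartan M A) (T : Subgroup G) (n : Fin l → G) (X : (Fin l → ℤ) → Subgroup G),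
    Finite M.Group ∧ RGD M.toCoxeterSystem h p T n X ∧ Nodes.RGDLib.G1 M.toCoxeterSystem h X = ⊤ ∧
      Sgn M.toCoxeterSystem h T X

theorem HasRGDS.of_equiv {p l : ℕ} {M : CoxeterMatrix (Fin l)} {G H : Type*} [Group G] [Group H] (e : G ≃* H)
    (hG : HasRGDS p M G) : HasRGDS p M H := by
  obtain ⟨A, h, T, n, X, hW, R, hX, hS⟩ := hG
  refine ⟨A, h, T.map e.toMonoidHom, fun i => e (n i), fun x => (X x).map e.toMonoidHom, hW,
    Nodes.RGDLib.rgd_map_of_injective R e.toMonoidHom e.injective, ?_, ?_⟩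
  · have h1 : (Nodes.RGDLib.G1 M.toCoxeterSystem h X).map e.toMonoidHom =
        Nodes.RGDLib.G1 M.toCoxeterSystem h (fun x => (X x).map e.toMonoidHom) := by
      unfold Nodes.RGDLib.G1 RGD.Sup
      rw [Subgroup.map_iSup]
    rw [← h1, hX, Subgroup.map_top_of_surjective _ e.surjective]
  · constructor
    · rintro _ ⟨s, hs, rfl⟩ _ ⟨t, ht, rfl⟩
      show e s * e t = e t * e s
      rw [← map_mul, hS.comm s hs t ht, map_mul]
    · intro i
      obtain ⟨a, haT, ha2, ha⟩ := hS.ex i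
      refine ⟨e a, ⟨a, haT, rfl⟩, by rw [← map_mul, ha2, map_one], ?_⟩
      rintro x hx _ ⟨u, hu, rfl⟩
      constructor
      · intro hev
        show e a * e u * (e a)⁻¹ = e u
        rw [← map_mul, ← map_inv, ← map_mul, (ha x hx u hu).1 hev]
      · intro ho h1
        change e a * e u * (e a)⁻¹ = e u at h1
        rw [← map_mul, ← map_inv, ← map_mul] at h1
        show e u = 1
        rw [(ha x hx u hu).2 ho (e.injective h1), map_one]

/-- **Root group data with sign elements give split (B,N)-pairs with `1_B^G` in the principal block.** -/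
theorem HasRGDS.hasSplitB0 {p l : ℕ} {M : CoxeterMatrix (Fin l)} {G : Type u} [Group G] [Finite G] [IsSimpleGroup G]
    (hp : p.Prime) (hl : 0 < l) (hG : HasRGDS p M G) : HasSplitB0 p M G := by
  obtain ⟨A, h, T, n, X, hW, R, hX, hS⟩ := hG
  have hgen : RGD.B M.toCoxeterSystem h T X ⊔ NN M.toCoxeterSystem R.nsys = ⊤ := by
    rw [eq_top_iff, ← hX]
    exact Nodes.RGDLib.rgd_G1_le R
  have hne : (R.bnPair hgen).S.Nonempty := ⟨n ⟨0, hl⟩, _, rfl⟩
  exact ⟨R.bnPair hgen, _, _, SplitRGD.split_of_rgd hp R hgen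
    (Cfsg.Agent.Tits.OfBN.normalCore_eq_bot (R.bnPair hgen) hne), Cfsg.Agent.Omega.ML.Ex.Typ.bnType R hgen,
    inB0_borel R hS hgen⟩

end Cfsg.Agent.H410.EBG
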