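import Mathlib

/-!
An automorphism of odd order of `ℤ^I` which is trivial modulo two is trivial.
-/

set_option autoImplicit false

namespace Cfsg.Agent.H410.EBG

theorem mink {I : Type*} [Finite I] (φ : Module.End ℤ (I → ℤ)) (h2 : ∀ x i, (2 : ℤ) ∣ φ x i - x i) {m : ℕ} (hm : Odd m)
    (hφ : φ ^ m = 1) : φ = 1 := by
  have key : ∀ k : ℕ, 1 ≤ k → ∀ x i, (2 : ℤ) ^ k ∣ φ x i - x i := by
    intro k hk
    induction k, hk using Nat.le_induction with
    | base => simpa using h2
    | succ k hk ih =>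
      -- `D` is divisible by `2 ^ k`
      have hD : ∀ x, ∃ y : I → ℤ, φ x = x + (2 : ℤ) ^ k • y := by
        intro x
        choose y hy using ih x
        refine ⟨y, ?_⟩
        funext i
        have := hy i
        rw [Pi.add_apply, Pi.smul_apply, smul_eq_mul]
        linarith
      have hj : ∀ (x y : I → ℤ), φ x = x + (2 : ℤ) ^ k • y → ∀ j : ℕ, ∃ z : I → ℤ,
          (φ ^ j) x = x + (j : ℤ) • ((2 : ℤ) ^ k • y) + (2 : ℤ) ^ (k + 1) • z := by
        intro x y hxy j
        induction j with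
        | zero => exact ⟨0, by simp⟩
        | succ j ihj =>
          obtain ⟨z, hz⟩ := ihj
          obtain ⟨y', hy'⟩ := hD y
          obtain ⟨l, rfl⟩ : ∃ l, k = l + 1 := ⟨k - 1, by omega⟩
          refine ⟨((j : ℤ) * 2 ^ l) • y' + φ z, ?_⟩
          rw [pow_succ', Module.End.mul_apply, hz, map_add, map_add, hxy, map_smul, map_smul, map_smul, hy']
          funext i
          simp only [Pi.add_apply, Pi.smul_apply, smul_eq_mul, Nat.cast_add, Nat.cast_one]
          ring
      intro x i
      obtain ⟨y, hy⟩ := hD x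
      obtain ⟨z, hz⟩ := hj x y hy m
      rw [hφ, Module.End.one_apply] at hz
      have h3 := congrFun hz i
      simp only [Pi.add_apply, Pi.smul_apply, smul_eq_mul] at h3
      have h4 : (m : ℤ) * ((2 : ℤ) ^ k * y i) = -(2 ^ (k + 1) * z i) := by linarith
      have h5 : φ x i - x i = 2 ^ k * y i := by
        rw [hy, Pi.add_apply, Pi.smul_apply, smul_eq_mul]; ring
      rw [h5]
      obtain ⟨r, hr⟩ := hm
      subst hr
      refine ⟨-z i - r * y i, ?_⟩
      have h6 : (2 : ℤ) ^ k * y i = -(2 ^ (k + 1) * z i) - 2 * (r : ℤ) * (2 ^ k * y i) := by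
        have h7 := h4
        push_cast at h7
        linarith
      rw [h6, pow_succ]
      ring_nf
  apply LinearMap.ext
  intro x
  rw [Module.End.one_apply]
  funext i
  by_contra hne
  have h3 : φ x i - x i ≠ 0 := sub_ne_zero.2 hne
  have h4 := key ((φ x i - x i).natAbs + 1) (by omega) x i
  have h5 : ((2 : ℤ) ^ ((φ x i - x i).natAbs + 1)).natAbs ≤ (φ x i - x i).natAbs := Int.natAbs_le_of_dvd_ne_zero h4 h3
  rw [Int.natAbs_pow] at h5
  have h6 : (φ x i - x i).natAbs < 2 ^ (φ x i - x i).natAbs := Nat.lt_two_pow_self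
  have h7 : (Int.natAbs 2) = 2 := rfl
  rw [h7, pow_succ] at h5
  omega

end Cfsg.Agent.H410.EBG
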