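import Cfsg.Agent.H694.EB.Data
import Cfsg.Agent.Classification.InvCentPL.QDChar

/-!
# Constituents of permutation characters on cosets of nested self-normalizing subgroups
-/

set_option autoImplicit false
set_option linter.style.haveILetI false

namespace Cfsg.Agent.H410.EBG

open Cfsg Cfsg.Agent.H694 Cfsg.Agent.H694.EB Cfsg.Agent.H610.EB
open Representation Module
open scoped ComplexConjugate
open Cfsg.Agent.Characters.Core

universe u

/-- The multiplicity in the permutation character is the dimension of the space of fixed vectors. -/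
theorem inner_perm {S : Type u} [Group S] [Fintype S] {H : Subgroup S}
    (hH : Subgroup.normalizer (H : Set S) = H) {V : Type*} [AddCommGroup V] [Module ℂ V]
    [FiniteDimensional ℂ V] (ρ : Representation ℂ S V) :
    classInner (permS (cls H)) ρ.character =
      (finrank ℂ (invariants (ρ.comp H.subtype)) : ℂ) := by
  classical
  haveI : Fintype H := Fintype.ofFinite _
  haveI : Fintype (S ⧸ H) := Fintype.ofFinite _
  have h0 := Cfsg.Agent.Classification.InvCentPL.QDChar.avg ρ H
  have hconj : conj ((finrank ℂ (invariants (ρ.comp H.subtype)) : ℂ)) =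
      (finrank ℂ (invariants (ρ.comp H.subtype)) : ℂ) := Complex.conj_natCast _
  rw [← hconj, ← h0, map_mul, map_inv₀, Complex.conj_natCast, map_sum]
  have h1 : ∀ g : S, ∑ s : S, (if s • (QuotientGroup.mk g : S ⧸ H) = QuotientGroup.mk g then
      conj (ρ.character s) else 0) = ∑ h : H, conj (ρ.character h) := by
    intro g
    have h2 : ∀ s : S, s • (QuotientGroup.mk g : S ⧸ H) = QuotientGroup.mk g ↔ g⁻¹ * s * g ∈ H := by
      intro s
      show (QuotientGroup.mk (s * g) : S ⧸ H) = QuotientGroup.mk g ↔ _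
      rw [eq_comm, QuotientGroup.eq, mul_assoc]
    have h3 : ∑ s : S, (if s • (QuotientGroup.mk g : S ⧸ H) = QuotientGroup.mk g then
        conj (ρ.character s) else 0) = ∑ t : S, (if t ∈ H then conj (ρ.character t) else 0) := by
      refine Fintype.sum_equiv (MulAut.conj g⁻¹).toEquiv _ _ fun s => ?_
      show _ = if g⁻¹ * s * g⁻¹⁻¹ ∈ H then conj (ρ.character (g⁻¹ * s * g⁻¹⁻¹)) else 0
      have h4 : ρ.character (g⁻¹ * s * g⁻¹⁻¹) = ρ.character s := by
        rw [Representation.char_conj]
      rw [h4, inv_inv]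
      simp only [h2]
    rw [h3, ← Finset.sum_filter]
    rw [Finset.sum_subtype (Finset.univ.filter (· ∈ H)) (p := (· ∈ H)) (by intro x; simp)]
  rw [classInner]
  have h5 : ∑ s : S, permS (cls H) s * conj (ρ.character s) =
      ∑ x : S ⧸ H, ∑ s : S, (if s • x = x then conj (ρ.character s) else 0) := by
    rw [Finset.sum_comm]
    refine Finset.sum_congr rfl fun s _ => ?_
    rw [permS_cls hH, Nat.card_eq_fintype_card, Fintype.card_subtype, ← Finset.sum_filter,
      Finset.sum_const, nsmul_eq_mul]
  have h6 : ∑ x : S ⧸ H, ∑ s : S, (if s • x = x then conj (ρ.character s) else 0) =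
      ∑ _x : S ⧸ H, ∑ h : H, conj (ρ.character h) := by
    refine Finset.sum_congr rfl fun x _ => ?_
    induction x using QuotientGroup.induction_on with
    | _ g => exact h1 g
  rw [h5, h6, Finset.sum_const, nsmul_eq_mul, Finset.card_univ, ← Nat.card_eq_fintype_card,
    Subgroup.card_eq_card_quotient_mul_card_subgroup H]
  have h7 : (Nat.card (S ⧸ H) : ℂ) ≠ 0 := by exact_mod_cast Nat.card_pos.ne'
  have h8 : (Nat.card H : ℂ) ≠ 0 := by exact_mod_cast Nat.card_pos.ne'
  push_cast
  field_simp

/-- A constituent of the permutation character on the cosets of a larger subgroup. -/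
theorem mu_ne_zero_of_le {S : Type u} [Group S] [Fintype S] {H K : Subgroup S}
    (hH : Subgroup.normalizer (H : Set S) = H) (hK : Subgroup.normalizer (K : Set S) = K)
    (hHK : H ≤ K) (φ : IrrCharacter S) (h : mu (permS (cls K)) (φ : S → ℂ) ≠ 0) :
    mu (permS (cls H)) (φ : S → ℂ) ≠ 0 := by
  obtain ⟨n, ρ, hρ, hφ⟩ := φ.2
  have h1 := inner_perm hH ρ
  have h2 := inner_perm hK ρ
  have h3 : mu (permS (cls K)) (φ : S → ℂ) = (finrank ℂ (invariants (ρ.comp K.subtype)) : ℤ) := by
    refine mu_eq ?_
    rw [← hφ, h2]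
    push_cast
    rfl
  have h4 : mu (permS (cls H)) (φ : S → ℂ) = (finrank ℂ (invariants (ρ.comp H.subtype)) : ℤ) := by
    refine mu_eq ?_
    rw [← hφ, h1]
    push_cast
    rfl
  have h5 := Cfsg.Agent.Classification.InvCentPL.QDChar.mono ρ hHK
  rw [h3] at h
  rw [h4]
  omega

theorem InB0.of_le {S : Type u} [Group S] [Fintype S] {H K : Subgroup S}
    (hH : Subgroup.normalizer (H : Set S) = H) (hK : Subgroup.normalizer (K : Set S) = K)
    (hHK : H ≤ K) (h : InB0 (cls H)) : InB0 (cls K) :=
  fun m hm φ hφ => h m hm φ (mu_ne_zero_of_le hH hK hHK φ hφ)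

end Cfsg.Agent.H410.EBG
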