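import Cfsg.Agent.H410.EBG.Mink
import Cfsg.Agent.Nodes.NormalForm
import Cfsg.Agent.H694.EB.Data
import Cfsg.Agent.Mrg.Omega.ML.Ex.Typ.List

/-!
# Root group data whose torus contains all sign elements: the permutation character on the Borel subgroups lies in the
principal `2`-block
-/

set_option autoImplicit false
set_option linter.unusedSectionVars false

namespace Cfsg.Agent.H410.EBG

open CoxeterSystem Cfsg.Agent.ChevalleyStructure.CoxeterGeom Cfsg.Agent.Tits.Roots Cfsg.Agent.Tits.Core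
  Cfsg.Agent.Nodes.Reps Cfsg.Agent.Nodes.BNOf Cfsg.Agent.Nodes.Bruhat Cfsg.Agent.Nodes.NormalForm
open Cfsg Cfsg.Agent.H694 Cfsg.Agent.H694.EB Cfsg.Agent.H610.EB

variable {I W Y : Type*} [Fintype I] [DecidableEq I] [Group W] [Group Y] {M : CoxeterMatrix I}
  {cs : CoxeterSystem M W} {A : I → I → ℤ} {h : IsCartan M A} {p : ℕ} {T : Subgroup Y} {n : I → Y}
  {X : (I → ℤ) → Subgroup Y}

/-- the torus is commutative and contains the sign elements -/
structure Sgn (cs : CoxeterSystem M W) (h : IsCartan M A) (T : Subgroup Y) (X : (I → ℤ) → Subgroup Y) : Prop where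
  comm : ∀ s ∈ T, ∀ t ∈ T, s * t = t * s
  ex : ∀ i : I, ∃ e ∈ T, e * e = 1 ∧ ∀ x, IsRoot cs h x → ∀ u ∈ X x,
    (Even (x i) → e * u * e⁻¹ = u) ∧ (Odd (x i) → e * u * e⁻¹ = u → u = 1)

/-- the elements of order at most two of the torus -/
def invs (T : Subgroup Y) : Set Y := {e | e ∈ T ∧ e * e = 1}

theorem invs_sub : invs T ⊆ T := fun _ he => he.1

/-- every root has an odd coordinate -/
theorem exists_odd {x : I → ℤ} (hx : IsRoot cs h x) : ∃ i, Odd (x i) := by
  by_contra hcon
  push Not at hcon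
  obtain ⟨w, j, rfl⟩ := hx
  have h1 : ∀ i, ∃ y, rep cs h w (sr j) i = 2 * y := by
    intro i
    obtain ⟨y, hy⟩ := Int.not_odd_iff_even.1 (hcon i)
    exact ⟨y, by rw [hy]; ring⟩
  choose y hy using h1
  have h2 : rep cs h w (sr j) = (2 : ℤ) • y := by
    funext i
    rw [hy, Pi.smul_apply, smul_eq_mul]
  have h3 : sr j = (2 : ℤ) • rep cs h w⁻¹ y := by
    rw [← map_smul, ← h2, rep_inv_apply]
  have h4 := congrFun h3 j
  rw [sr_self, Pi.smul_apply, smul_eq_mul] at h4
  omega

variable (R : RGD cs h p T n X) (hS : Sgn cs h T X)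

include R hS

theorem inf_centralizer_eq_bot {x : I → ℤ} (hx : IsRoot cs h x) : X x ⊓ Subgroup.centralizer (invs T) = ⊥ := by
  rw [Subgroup.eq_bot_iff_forall]
  rintro u ⟨hu, hc⟩
  obtain ⟨i, hi⟩ := exists_odd hx
  obtain ⟨e, heT, he2, he⟩ := hS.ex i
  apply (he x hx u hu).2 hi
  have h1 := Subgroup.mem_centralizer_iff.1 hc e ⟨heT, he2⟩
  rw [h1, mul_inv_cancel_right]

/-- elements centralising the involutions of the torus lie in `N` -/
theorem exists_rp_of_centralizer [Finite W] (hG : GG cs h T X = ⊤) {g : Y} (hg : g ∈ Subgroup.centralizer (invs T)) :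
    ∃ w, Rp cs R.nsys w g := by
  obtain ⟨u, hu, w, k, hk, -, v, hv, rfl⟩ := mem_centralizer R (invs_sub (T := T)) (by rw [hG]; exact Subgroup.mem_top g) hg
  have h1 : RGD.Sup (fun x => X x ⊓ Subgroup.centralizer (invs T)) (RGD.Pos cs h) = ⊥ := by
    rw [eq_bot_iff]
    apply RGD.Sup_le
    intro z hz
    exact (inf_centralizer_eq_bot R hS hz.1).le
  rw [h1, Subgroup.mem_bot] at hu hv
  rw [hu, hv, one_mul, mul_one]
  exact ⟨w, hk⟩

/-- elements of odd order centralising the involutions of the torus lie in the torus -/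
theorem mem_T_of_centralizer [Finite W] [Finite Y] (hG : GG cs h T X = ⊤) {g : Y}
    (hg : g ∈ Subgroup.centralizer (invs T)) (hodd : Odd (orderOf g)) : g ∈ T := by
  obtain ⟨w, hw⟩ := exists_rp_of_centralizer R hS hG hg
  have hpow : ∀ m : ℕ, Rp cs R.nsys (w ^ m) (g ^ m) := by
    intro m
    induction m with
    | zero => rw [pow_zero, pow_zero]; exact rp_one
    | succ m ih => rw [pow_succ, pow_succ]; exact ih.mul hw
  have hwm : w ^ orderOf g = 1 := by
    have h1 := hpow (orderOf g)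
    rw [pow_orderOf_eq_one] at h1
    exact R.eq_one_of_mem_B h1 (one_mem _)
  -- `w` is trivial modulo two on the simple roots
  have hpar : ∀ x, IsRoot cs h x → ∀ i, (2 : ℤ) ∣ rep cs h w x i - x i := by
    intro x hx i
    obtain ⟨e, heT, he2, he⟩ := hS.ex i
    have hcomm := Subgroup.mem_centralizer_iff.1 hg e ⟨heT, he2⟩
    have hconj := R.conj_rp hw hx
    have hx' : IsRoot cs h (rep cs h w x) := hx.act w
    have key : Even (x i) ↔ Even (rep cs h w x i) := by
      constructor
      · intro hev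
        by_contra hne
        rw [Int.not_even_iff_odd] at hne
        apply X_ne_bot R hx'
        rw [Subgroup.eq_bot_iff_forall]
        intro v hv
        apply (he _ hx' v hv).2 hne
        rw [← hconj, mem_cj] at hv
        have h2 := (he x hx _ hv).1 hev
        calc e * v * e⁻¹ = g * (e * (g⁻¹ * v * g) * e⁻¹) * g⁻¹ := by
              have h3 : e * g⁻¹ = g⁻¹ * e := by
                rw [eq_inv_mul_iff_mul_eq, ← mul_assoc, ← hcomm, mul_assoc, mul_inv_cancel, mul_one]
              have h4 : g * (e * (g⁻¹ * v * g) * e⁻¹) * g⁻¹ = (g * (e * g⁻¹)) * v * (g * (e * g⁻¹))⁻¹ := by group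
              rw [h4, h3, mul_inv_cancel_left]
          _ = g * (g⁻¹ * v * g) * g⁻¹ := by rw [h2]
          _ = v := by group
      · intro hev
        by_contra hne
        rw [Int.not_even_iff_odd] at hne
        apply X_ne_bot R hx
        rw [Subgroup.eq_bot_iff_forall]
        intro v hv
        apply (he _ hx v hv).2 hne
        have h2 := (he _ hx' _ (R.conj_mem hw hx hv)).1 hev
        have h3 : e * (g * v * g⁻¹) * e⁻¹ = g * (e * v * e⁻¹) * g⁻¹ := by
          calc e * (g * v * g⁻¹) * e⁻¹ = (e * g) * v * (e * g)⁻¹ := by group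
            _ = (g * e) * v * (g * e)⁻¹ := by rw [hcomm]
            _ = _ := by group
        rw [h3] at h2
        exact mul_left_cancel (mul_right_cancel h2)
    rcases Int.even_or_odd (x i) with h5 | h5
    · exact ((key.1 h5).sub h5).two_dvd
    · have h6 : Odd (rep cs h w x i) := by
        rw [← Int.not_even_iff_odd, ← key, Int.not_even_iff_odd]; exact h5
      exact (h6.sub_odd h5).two_dvd
  have hall : ∀ (x : I → ℤ) i, (2 : ℤ) ∣ rep cs h w x i - x i := by
    intro x i
    have h2 : x = ∑ k, x k • sr k := by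
      funext j
      simp [Finset.sum_apply, sr, Pi.single_apply]
    have h3 : rep cs h w x i - x i = ∑ k, x k * (rep cs h w (sr k) i - sr k i) := by
      conv_lhs => rw [h2]
      rw [map_sum, Finset.sum_apply, Finset.sum_apply, ← Finset.sum_sub_distrib]
      refine Finset.sum_congr rfl fun k _ => ?_
      rw [map_smul, Pi.smul_apply, Pi.smul_apply, smul_eq_mul, smul_eq_mul, mul_sub]
    rw [h3]
    exact Finset.dvd_sum fun k _ => (hpar (sr k) (isRoot_sr cs h k) i).mul_left _
  have h7 : rep cs h w = 1 := by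
    refine mink (rep cs h w) hall hodd ?_
    rw [← map_pow, hwm, map_one]
  have h8 : w = 1 := rep_injective cs h (by rw [h7, map_one])
  rw [h8] at hw
  exact hw.mem_of_one

/-- **The number of conjugates of an element of odd order mapping `B` to `kB` is even** -/
theorem even_card [Finite W] [Finite Y] (hG : GG cs h T X = ⊤) {g : Y} (hodd : Odd (orderOf g)) {w : W} {k : Y}
    (hk : Rp cs R.nsys w k) (hw : w ≠ 1) :
    Even (Nat.card {x : Y // IsConj g x ∧ k⁻¹ * x ∈ RGD.B cs h T X}) := by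
  classical
  let E : Subgroup Y :=
    { carrier := invs T
      mul_mem' := by
        rintro a b ⟨ha, ha2⟩ ⟨hb, hb2⟩
        refine ⟨mul_mem ha hb, ?_⟩
        have h1 := hS.comm b hb a ha
        calc a * b * (a * b) = a * (b * a) * b := by group
          _ = a * (a * b) * b := by rw [h1]
          _ = (a * a) * (b * b) := by group
          _ = 1 := by rw [ha2, hb2, one_mul]
      one_mem' := ⟨one_mem _, one_mul 1⟩
      inv_mem' := by
        rintro a ⟨ha, ha2⟩
        exact ⟨inv_mem ha, by rw [← mul_inv_rev, ha2, inv_one]⟩ }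
  have hE : IsPGroup 2 E := by
    rintro ⟨a, ha, ha2⟩
    refine ⟨1, Subtype.ext ?_⟩
    show a ^ 2 ^ 1 = 1
    rw [pow_one, pow_two]
    exact ha2
  have hkN : ∀ t ∈ T, k⁻¹ * t * k ∈ T := by
    intro t ht
    have h1 := (mem_normalizer_iff_cj.1 hk.inv.mem_normalizer)
    have h2 : k⁻¹ * t * k⁻¹⁻¹ ∈ cj k⁻¹ T := conj_mem_cj.2 ht
    rwa [h1, inv_inv] at h2
  let act : MulAction E {x : Y // IsConj g x ∧ k⁻¹ * x ∈ RGD.B cs h T X} :=
    { smul := fun e x => ⟨e * x.1 * (e : Y)⁻¹, x.2.1.trans (isConj_iff.2 ⟨e, rfl⟩), by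
        have h1 : k⁻¹ * ((e : Y) * x.1 * (e : Y)⁻¹) = (k⁻¹ * e * k) * (k⁻¹ * x.1) * (e : Y)⁻¹ := by group
        rw [h1]
        exact mul_mem (mul_mem (RGD.T_le_B (hkN e e.2.1)) x.2.2) (inv_mem (RGD.T_le_B e.2.1))⟩
      one_smul := fun x => Subtype.ext (by
        show ((1 : E) : Y) * x.1 * ((1 : E) : Y)⁻¹ = x.1
        simp)
      mul_smul := fun a b x => Subtype.ext (by
        show ((a * b : E) : Y) * x.1 * ((a * b : E) : Y)⁻¹ = a * (b * x.1 * (b : Y)⁻¹) * (a : Y)⁻¹
        rw [Subgroup.coe_mul]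
        group) }
  have h1 := hE.card_modEq_card_fixedPoints {x : Y // IsConj g x ∧ k⁻¹ * x ∈ RGD.B cs h T X}
  have h2 : Nat.card (MulAction.fixedPoints E {x : Y // IsConj g x ∧ k⁻¹ * x ∈ RGD.B cs h T X}) = 0 := by
    rw [Nat.card_eq_zero]
    left
    refine ⟨fun x => ?_⟩
    obtain ⟨⟨x, hx1, hx2⟩, hx3⟩ := x
    apply hw
    have hxc : x ∈ Subgroup.centralizer (invs T) := by
      rw [Subgroup.mem_centralizer_iff]
      intro e he
      have h3 := hx3 (⟨e, he⟩ : E)
      have h4 : e * x * e⁻¹ = x := congrArg Subtype.val h3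
      rwa [mul_inv_eq_iff_eq_mul] at h4
    have hxo : Odd (orderOf x) := by
      obtain ⟨c, hc⟩ := isConj_iff.1 hx1
      rw [← hc]
      have h5 : orderOf (c * g * c⁻¹) = orderOf g :=
        orderOf_injective (MulAut.conj c).toMonoidHom (MulAut.conj c).injective g
      rw [h5]
      exact hodd
    have hxT := mem_T_of_centralizer R hS hG hxc hxo
    have h6 : k⁻¹ ∈ RGD.B cs h T X := by
      have h7 : k⁻¹ = (k⁻¹ * x) * x⁻¹ := by group
      rw [h7]
      exact mul_mem hx2 (inv_mem (RGD.T_le_B hxT))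
    have h8 := R.eq_one_of_mem_B hk.inv h6
    rwa [inv_eq_one] at h8
  rw [h2] at h1
  rw [Nat.even_iff]
  exact h1

end Cfsg.Agent.H410.EBG
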