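import Cfsg.Agent.H694.EB.Wrap
import Cfsg.Agent.H410.EBG.PermInner
import Cfsg.Agent.H410.EBG.G2Count

/-!
# Groups with a split (B, N)-pair of type `G₂` whose two types are exchanged

`concl_swap_G2`: the conclusion from the two classes of maximal parabolic subgroups.
-/

set_option autoImplicit false
set_option linter.unusedSectionVars false
set_option linter.style.haveILetI false

namespace Cfsg.Agent.H410.EBG

open Cfsg Cfsg.Agent.H694 Cfsg.Agent.H694.EB Cfsg.Agent.H610.EB Cfsg.Agent.H684.EB Cfsg.Agent.H611.EB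
open Cfsg.Agent.Characters.Core
open Cfsg.Agent.LieExceptional.BNPairCore Cfsg.Agent.Tits.Core
  Cfsg.Agent.Tits.OfBN Cfsg.Agent.Schreier.BNSch Cfsg.Agent.FixBN Cfsg.Agent.FixBN.TwOfBN
  Cfsg.Agent.OddHalf.Table.AutBldg Cfsg.Agent.Tits.OppRes

universe u

section

variable {K : Type u} [Group K] [Finite K] {P : Cfsg.BNPair K}
variable [hN : ((P.B ⊓ P.N).subgroupOf P.N).Normal]
variable {I : Type*} [Finite I] {M : CoxeterMatrix I} (e : I ≃ P.S) (cs : CoxeterSystem M (WP P))
  (hcs : ∀ i, cs.simple i = QuotientGroup.mk (⟨(e i : K), P.subset (e i).2⟩ : P.N))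

omit [Finite K] [Finite I] in
/-- The image of a parabolic subgroup under an automorphism preserving `B`. -/
theorem map_PJ_of_keep [Cox cs] {β : MulAut K} (hβ : Keep P β) (J : Set I) :
    (PJ P e J).map β.toMonoidHom = PJ P e (sg e cs hcs hβ '' J) := by
  have h2 : ∀ x, x ∈ PJ P e J ↔ β x ∈ PJ P e (sg e cs hcs hβ '' J) := by
    intro x
    rw [mem_PJ e cs hcs, mem_PJ e cs hcs]
    have h3 : wt P (β x) = fW P β (wt P x) := (fW_wt β hβ x).symm
    rw [h3]
    let f : WP P →* WP P :=
      { toFun := fW P β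
        map_one' := fW_one β hβ
        map_mul' := fW_mul β hβ e cs hcs }
    have hfinj : Function.Injective f := fW_injective β hβ
    have h4 : (WJ cs J).map f = WJ cs (sg e cs hcs hβ '' J) := by
      rw [WJ, WJ, MonoidHom.map_closure]
      congr 1
      ext w
      constructor
      · rintro ⟨_, ⟨i, hi, rfl⟩, rfl⟩
        exact ⟨_, ⟨i, hi, rfl⟩, (fW_simple' e cs hcs hβ i).symm⟩
      · rintro ⟨_, ⟨i, hi, rfl⟩, rfl⟩
        exact ⟨_, ⟨i, hi, rfl⟩, fW_simple' e cs hcs hβ i⟩
    rw [← h4]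
    constructor
    · intro h
      exact ⟨_, h, rfl⟩
    · rintro ⟨w, hw, hwx⟩
      have : w = wt P x := hfinj hwx
      rwa [← this]
  ext x
  constructor
  · rintro ⟨y, hy, rfl⟩
    exact (h2 y).1 hy
  · intro hx
    refine ⟨β⁻¹ x, (h2 _).2 ?_, ?_⟩
    · rw [MulAut.apply_inv_self]
      exact hx
    · exact MulAut.apply_inv_self _ β x

omit [Finite K] [Finite I] in
/-- The classes of different standard parabolic subgroups are disjoint. -/
theorem cls_disjoint {J L : Set I} (hJL : J ≠ L) : Disjoint (cls (PJ P e J)) (cls (PJ P e L)) := by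
  rw [Set.disjoint_left]
  rintro H ⟨g, rfl⟩ ⟨t, ht⟩
  have h1 : (PJ P e J).map (MulAut.conj (t⁻¹ * g)).toMonoidHom = PJ P e L := by
    rw [← map_conj_conj, ← ht, map_conj_conj, inv_mul_cancel, map_conj_one]
  have h2 := Cfsg.Agent.S0313.result P (PJ_sub e J) (PJ_sub e L) _ h1
  have h3 := Cfsg.Agent.S0314.result P (PJ_sub e J) (PJ_sub e L) h2
  have hinj : Function.Injective (fun i => (e i : K)) := fun i j h =>
    e.injective (Subtype.ext h)
  exact hJL (hinj.image_injective h3)

omit [Finite K] [Finite I] in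
/-- The image of a class under an automorphism, up to inner automorphisms. -/
theorem map_mem_cls [Cox cs] {α : MulAut K} {t : K} (hα : Keep P (MulAut.conj t * α)) (J : Set I)
    {H : Subgroup K} (hH : H ∈ cls (PJ P e J)) :
    H.map α.toMonoidHom ∈ cls (PJ P e (sg e cs hcs hα '' J)) := by
  obtain ⟨s, rfl⟩ := hH
  refine ⟨α s * t⁻¹, ?_⟩
  rw [← map_PJ_of_keep e cs hcs hα J, Subgroup.map_map, Subgroup.map_map]
  congr 1
  ext x
  show (α s * t⁻¹) * (t * α x * t⁻¹) * (α s * t⁻¹)⁻¹ = α (s * x * s⁻¹)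
  rw [map_mul, map_mul, map_inv]
  group

end

/-- **The conclusion from the two classes of maximal parabolic subgroups**, type `G₂`, when the types
are exchanged. -/
theorem concl_swap_G2 {G : Type u} [Group G] [Fintype G] {M : Ideal AlgInt} {k : ℕ}
    (N J : Subgroup G) [N.Normal] [J.Normal] [Fintype N] (hNJ : N ≤ J) (hM : IsPModular 2 M)
    (hodd : Odd (N.relIndex J)) (hidx : ∃ j : ℕ, J.index = 2 ^ j) (hk : IsK G k)
    {P : Cfsg.BNPair N} {U : Subgroup N} {p : ℕ} [Fact p.Prime] (S : Split P p U)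
    [hN : ((P.B ⊓ P.N).subgroupOf P.N).Normal] (e : Fin 2 ≃ P.S)
    (cs : CoxeterSystem CoxeterMatrix.G₂ (WP P))
    (hcs : ∀ i, cs.simple i = QuotientGroup.mk (⟨(e i : N), P.subset (e i).2⟩ : P.N))
    (hB0 : InB0 (cls P.B))
    (hsw : ∃ (g : G) (t : N) (ht : Keep P (MulAut.conj t * MulAut.conjNormal g)) (i : Fin 2),
      sg e cs hcs ht i ≠ i) : Concl M G N k := by
  have hfin : Finite (WP P) := inferInstance
  have hC : Cox cs := inferInstance
  have hd01 : ({0} : Set (Fin 2)) ≠ {1} := by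
    intro h
    have h1 : (0 : Fin 2) ∈ ({1} : Set (Fin 2)) := by
      rw [← h]
      exact Set.mem_singleton 0
    exact absurd h1 (by decide)
  have hdis : Disjoint (cls (PJ P e ({0} : Set (Fin 2)))) (cls (PJ P e ({1} : Set (Fin 2)))) :=
    cls_disjoint e hd01
  -- the type permutations
  have hperm : ∀ f : Fin 2 → Fin 2, Function.Injective f →
      (∀ i, f i = i) ∨ (f 0 = 1 ∧ f 1 = 0) := by decide
  have hcase : ∀ g : G, ∀ (t : N) (ht : Keep P (MulAut.conj t * MulAut.conjNormal g)),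
      ((∀ i, sg e cs hcs ht i = i) ∧
        (∀ H ∈ cls (PJ P e ({0} : Set (Fin 2))), cmap N g H ∈ cls (PJ P e ({0} : Set (Fin 2)))) ∧
        (∀ H ∈ cls (PJ P e ({1} : Set (Fin 2))), cmap N g H ∈ cls (PJ P e ({1} : Set (Fin 2))))) ∨
      ((sg e cs hcs ht 0 = 1) ∧
        (∀ H ∈ cls (PJ P e ({0} : Set (Fin 2))), cmap N g H ∈ cls (PJ P e ({1} : Set (Fin 2)))) ∧
        (∀ H ∈ cls (PJ P e ({1} : Set (Fin 2))), cmap N g H ∈ cls (PJ P e ({0} : Set (Fin 2))))) := by
    intro g t ht
    have h1 : ∀ (l : Fin 2), ∀ H ∈ cls (PJ P e ({l} : Set (Fin 2))),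
        cmap N g H ∈ cls (PJ P e ({sg e cs hcs ht l} : Set (Fin 2))) := by
      intro l H hH
      have h2 := map_mem_cls e cs hcs ht {l} hH
      rw [Set.image_singleton] at h2
      exact h2
    rcases hperm _ (sg_injective e cs hcs ht) with h | ⟨h, h'⟩
    · left
      refine ⟨h, ?_, ?_⟩
      · have := h1 0
        rwa [h 0] at this
      · have := h1 1
        rwa [h 1] at this
    · right
      refine ⟨h, ?_, ?_⟩
      · have := h1 0
        rwa [h] at this
      · have := h1 1
        rwa [h'] at this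
  have hkeep : ∀ g : G, ∃ t : N, Keep P (MulAut.conj t * MulAut.conjNormal g) := fun g =>
    exists_conj_keep S (MulAut.conjNormal g)
  refine concl_of_two_odd N J hNJ hM hodd hidx hk (cls (PJ P e ({0} : Set (Fin 2))))
    (cls (PJ P e ({1} : Set (Fin 2)))) hdis ⟨_, 1, rfl⟩ (fun g H hH => conj_mem_cls hH g)
    ?_ ?_ ?_ ?_
  · intro g
    obtain ⟨t, ht⟩ := hkeep g
    rcases hcase g t ht with h | h
    · exact Or.inl h.2
    · exact Or.inr h.2
  · intro hall
    obtain ⟨g, t, ht, i, hi⟩ := hsw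
    rcases hcase g t ht with h | h
    · exact hi (h.1 i)
    · have h1 : PJ P e ({0} : Set (Fin 2)) ∈ cls (PJ P e ({0} : Set (Fin 2))) :=
        ⟨1, map_conj_one _⟩
      exact Set.disjoint_left.1 hdis (hall g _ h1) (h.2.1 _ h1)
  · intro φ h1 _
    have hB : Subgroup.normalizer (P.B : Set N) = P.B := by
      have h1 := Cfsg.Agent.S0312.result P (J := ∅) (Set.empty_subset _)
      have h2 : P.parabolic ∅ = P.B := by
        unfold Cfsg.BNPair.parabolic
        simp
      rwa [h2] at h1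
    refine InB0.of_le hB (normalizer_PJ e {0}) (B_le_PJ e {0}) hB0 M hM φ ?_
    intro h2
    rw [h2] at h1
    exact absurd h1 (by decide)
  · rw [card_pairRel (normalizer_PJ e {0}) (normalizer_PJ e {0}),
      card_pairRel (normalizer_PJ e {0}) (normalizer_PJ e {1}), card_double e cs hcs,
      card_double e cs hcs, (parity_G2 cs).1, (parity_G2 cs).2]
    decide

end Cfsg.Agent.H410.EBG
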